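import Mathlib
import Cfsg.Prelude.Def_Transfer
import Cfsg.Prelude.Def_CaseTheorems

/-!
# Normal elementary abelian subgroups of Sylow subgroups: transport between Sylow subgroups
-/

set_option autoImplicit false

namespace Cfsg.Agent.Lib.NormalRank

open Subgroup

variable {G : Type*} [Group G]

theorem isElementaryAbelian_of {p : ℕ} {A : Subgroup G} (h1 : ∀ a ∈ A, ∀ b ∈ A, a * b = b * a)
    (h2 : ∀ a ∈ A, a ^ p = 1) : Cfsg.IsElementaryAbelian p A :=
  ⟨⟨⟨fun a b => Subtype.ext (h1 a a.2 b b.2)⟩⟩, h2⟩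

theorem comm_of {p : ℕ} {A : Subgroup G} (h : Cfsg.IsElementaryAbelian p A) :
    ∀ a ∈ A, ∀ b ∈ A, a * b = b * a := by
  intro a ha b hb
  have := h.1.is_comm.comm ⟨a, ha⟩ ⟨b, hb⟩
  exact congrArg Subtype.val this

/-- A subgroup of a Sylow subgroup normalized by it gives such a subgroup in each Sylow subgroup. -/
theorem exists_normal_of_sylow [Finite G] {p : ℕ} [Fact p.Prime] (S₀ : Sylow p G) (E₀ : Subgroup G)
    (hle : E₀ ≤ S₀) (hnorm : ∀ s ∈ (S₀ : Subgroup G), ∀ e ∈ E₀, s * e * s⁻¹ ∈ E₀)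
    (hel : Cfsg.IsElementaryAbelian p E₀) (P : Sylow p G) :
    ∃ E : Subgroup ↥(P : Subgroup G), E.Normal ∧ Cfsg.IsElementaryAbelian p E ∧
      Nat.card E = Nat.card E₀ := by
  classical
  obtain ⟨g, rfl⟩ := MulAction.exists_smul_eq G S₀ P
  have hmem : ∀ x : G, x ∈ ((g • S₀ : Sylow p G) : Subgroup G) ↔ g⁻¹ * x * g ∈ (S₀ : Subgroup G) := by
    intro x
    rw [Sylow.coe_subgroup_smul, Subgroup.mem_smul_pointwise_iff_exists]
    constructor
    · rintro ⟨s, hs, rfl⟩
      have : g⁻¹ * ((MulAut.conj g) • s) * g = s := by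
        simp [MulAut.smul_def, MulAut.conj_apply, mul_assoc]
      rw [this]
      exact hs
    · intro h
      refine ⟨_, h, ?_⟩
      simp [MulAut.smul_def, MulAut.conj_apply, mul_assoc]
  let E₁ : Subgroup G := E₀.map (MulAut.conj g).toMonoidHom
  have hE₁ : ∀ x : G, x ∈ E₁ ↔ g⁻¹ * x * g ∈ E₀ := by
    intro x
    constructor
    · rintro ⟨e, he, rfl⟩
      simpa [MulAut.conj_apply, mul_assoc] using he
    · intro h
      refine ⟨_, h, ?_⟩
      simp [MulAut.conj_apply, mul_assoc]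
  have hE₁le : E₁ ≤ ((g • S₀ : Sylow p G) : Subgroup G) := by
    intro x hx
    rw [hmem]
    exact hle ((hE₁ x).1 hx)
  have hcard : Nat.card E₁ = Nat.card E₀ :=
    (Nat.card_congr (E₀.equivMapOfInjective _ (MulAut.conj g).injective).toEquiv).symm
  have hel' : Cfsg.IsElementaryAbelian p E₁ := by
    refine isElementaryAbelian_of ?_ ?_
    · intro a ha b hb
      have h1 := (hE₁ a).1 ha
      have h2 := (hE₁ b).1 hb
      have h3 := comm_of hel _ h1 _ h2
      have h4 : g * (g⁻¹ * a * g * (g⁻¹ * b * g)) * g⁻¹ = g * (g⁻¹ * b * g * (g⁻¹ * a * g)) * g⁻¹ := by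
        rw [h3]
      simpa [mul_assoc] using h4
    · intro a ha
      have h1 := hel.2 _ ((hE₁ a).1 ha)
      have h2 : (g⁻¹ * a * g) ^ p = g⁻¹ * a ^ p * g := by
        have := conj_pow (a := g⁻¹) (b := a) (i := p)
        simpa using this
      rw [h2] at h1
      have : a ^ p = g * (g⁻¹ * a ^ p * g) * g⁻¹ := by group
      rw [this, h1]
      simp
  refine ⟨E₁.subgroupOf _, ?_, ?_, ?_⟩
  · constructor
    rintro ⟨e, he⟩ he' ⟨x, hx⟩
    rw [Subgroup.mem_subgroupOf] at he' ⊢
    show x * e * x⁻¹ ∈ E₁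
    rw [hE₁] at he' ⊢
    rw [hmem] at hx
    have := hnorm _ hx _ he'
    convert this using 1
    group
  · refine isElementaryAbelian_of ?_ ?_
    · intro a ha b hb
      rw [Subgroup.mem_subgroupOf] at ha hb
      exact Subtype.ext (comm_of hel' _ ha _ hb)
    · intro a ha
      rw [Subgroup.mem_subgroupOf] at ha
      exact Subtype.ext (by simpa using hel'.2 _ ha)
  · rw [← hcard]
    exact Nat.card_congr (Subgroup.subgroupOfEquivOfLe hE₁le).toEquiv

/-- An elementary abelian subgroup of a subgroup has order bounded by the rank of the whole group. -/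
theorem card_le_of_prankLE {p k : ℕ} (h : Cfsg.PRankLE p k G) (P : Subgroup G) (E : Subgroup ↥P)
    (hE : Cfsg.IsElementaryAbelian p E) : Nat.card E ≤ p ^ k := by
  have h1 : Nat.card E = Nat.card (E.map P.subtype) :=
    Nat.card_congr (E.equivMapOfInjective _ P.subtype_injective).toEquiv
  rw [h1]
  refine h _ ?_ ?_
  · constructor
    constructor
    rintro ⟨_, a, ha, rfl⟩ ⟨_, b, hb, rfl⟩
    apply Subtype.ext
    have := comm_of hE a ha b hb
    exact congrArg (fun y : ↥P => (y : G)) this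
  · rintro _ ⟨a, ha, rfl⟩
    have := hE.2 a ha
    simpa using congrArg Subtype.val this

end Cfsg.Agent.Lib.NormalRank
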